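import Cfsg.Agent.Lib.SLG.KN2

/-!
Sections of `G / F(G)` for a solvable complex linear group `G` of degree `r` have at most
`3 ^ (r - 1)` classes.
-/

set_option autoImplicit false

namespace Cfsg.Agent.SLG

open Subgroup Module Cfsg.Agent.OO
open scoped Pointwise commutatorElement

universe u

section

variable {k : Type*} {H : Type u} {V : Type*} [Field k] [Group H] [AddCommGroup V] [Module k V]
  {ρ : H →* End k V} [Finite H] [FiniteDimensional k V] [Nontrivial V]

theorem Sym.relIndex_le_sq' {A : Subgroup H} (inj : Function.Injective ρ)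
    (h : Sym ⊤ (scal ρ ⊥) A) : (scal ρ ⊥).relIndex A ≤ finrank k V ^ 2 := by
  have := Fintype.ofFinite (A ⧸ (scal ρ ⊥).subgroupOf A)
  have hm : ∀ g a : A, ⁅(g : H), (a : H)⁆ ∈ scal ρ ⊥ := fun g a =>
    h.comm (commutator_mem_commutator g.2 a.2)
  choose c hc using hm
  have hi := (algebraMap k (End k V)).injective
  replace hc : ∀ g a : A, algebraMap k (End k V) (c g a) = ρ ⁅(g : H), (a : H)⁆ := hc
  let χ : A → A →* k := fun a =>
    { toFun g := c g a
      map_one' := hi (by simp [hc])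
      map_mul' g g' := hi (by
        rw [mul_comm (G := k), map_mul, hc, hc, hc, ← map_mul]
        exact congrArg ρ (PGrp.commutatorElement_mul_left_of_commute
          (h.cen (mem_top _) _ ⟨_, hc g' a⟩))) }
  have li := li_of_chars (χ := fun q : A ⧸ (scal ρ ⊥).subgroupOf A => χ q.out) (fun q q' e => ?_)
    (fun g : A => (LinearMap.mulLeft k (ρ g)).comp (LinearMap.mulRight k (ρ (g : H)⁻¹)))
    (x := fun q => ρ q.out) (fun q => (Group.isUnit (q.out : H) |>.map ρ).ne_zero) fun g q => ?_
  · have := li.fintype_card_le_finrank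
    rwa [finrank_linearMap, ← sq, ← Nat.card_eq_fintype_card] at this
  · rw [← q.out_eq, ← q'.out_eq]
    refine QuotientGroup.eq.2 (h.zc ⟨(q.out⁻¹ * q'.out).2, fun g hg => ?_⟩)
    have : ⁅g⁻¹, (q.out : H)⁆ = ⁅g⁻¹, (q'.out : H)⁆ := inj ((hc ⟨g⁻¹, inv_mem hg⟩ _).symm.trans
      ((congrArg _ (DFunLike.congr_fun e ⟨g⁻¹, inv_mem hg⟩)).trans (hc _ _)))
    calc g * ((q.out : H)⁻¹ * q'.out) = (q.out : H)⁻¹ * g * ⁅g⁻¹, (q.out : H)⁆ * q'.out := by group
      _ = (q.out : H)⁻¹ * q'.out * g := by rw [this]; group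
  · show ρ g * (ρ q.out * ρ (g : H)⁻¹) = c g q.out • ρ q.out
    rw [Algebra.smul_def, hc]
    simp only [← map_mul]
    congr 1; group

theorem kn_prim [Group.IsSolvable H] (inj : Function.Injective ρ)
    (h : ∀ D : Subgroup H, D.Normal → Ab D → D ≤ scal ρ ⊥) :
    KN (fittingSubgroup H) (3 ^ (finrank k V - 1)) := by
  have hz : ⊤ ≤ 𝐂(scal ρ ⊥) := by
    rintro g - x ⟨c, hc⟩
    exact inj (by rw [map_mul, map_mul, ← hc]; exact Algebra.commutes c _)
  have hi := (algebraMap k (End k V)).injective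
  obtain ⟨A, hA⟩ := Hyp.exists_sym (C := ⊤) (U := scal ρ ⊥) ⟨inferInstance,
    normal_scal (by rintro g _ ⟨c, rfl⟩; exact ⟨c, ((cj ρ g).commutes c).symm⟩), inferInstance,
    le_top, hz, by
      choose c hc using fun g : scal ρ (⊥ : Subalgebra k (End k V)) => g.2
      replace hc : ∀ g, algebraMap k (End k V) (c g) = ρ g := hc
      exact isCyclic_of_injective_ringHom (R := k)
        { toFun := c
          map_one' := hi (by simp [hc])
          map_mul' a b := hi (by simp [hc]) } fun a b e =>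
        Subtype.ext (inj ((hc a).symm.trans ((congrArg _ e).trans (hc b)))),
    fun D h1 _ h2 => h D h1 h2⟩
  obtain ⟨ε, hε⟩ := hA.exists_sq
  have := hA.nA
  have h1 := (Nat.pow_le_pow_iff_left two_ne_zero).1 (hε ▸ hA.relIndex_le_sq' inj)
  exact (hA.kn hε).mono (Core.le_fitting (Core.isNilpotent_of_commutator_commutator_eq_bot
    (commutator_eq_bot_iff.2 (hA.comm.trans (le_cent_symm (le_top.trans hz))))))
    (Nat.pow_le_pow_right three_pos (by omega))

end

theorem kn_lin (t : ℕ) : ∀ (G : Type u) [Group G] [Finite G] [Group.IsSolvable G] (V : Type)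
    [AddCommGroup V] [Module ℂ V] [FiniteDimensional ℂ V] [Nontrivial V] (ρ : G →* End ℂ V),
    Function.Injective ρ → finrank ℂ V ≤ t → KN (fittingSubgroup G) (3 ^ (finrank ℂ V - 1)) := by
  induction t with
  | zero => exact fun G _ _ _ V _ _ _ _ ρ _ h => absurd h finrank_pos.not_ge
  | succ t ih =>
    intro G _ _ _ V _ _ _ _ ρ inj ht
    by_cases h : ∀ D : Subgroup G, D.Normal → Ab D → D ≤ scal ρ ⊥
    · exact kn_prim inj h
    push Not at h
    obtain ⟨D, hn, hD, hU⟩ := h
    classical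
    let W : (D → ℂ) → Submodule ℂ V := fun χ => ⨅ d : D, (ρ d).eigenspace (χ d)
    have hW : ∀ {χ v}, v ∈ W χ ↔ ∀ d : D, ρ d v = χ d • v := by
      simp [W, End.mem_eigenspace_iff]
    have hs : ∀ (g : G) μ, (ρ g).maxGenEigenspace μ = (ρ g).eigenspace μ := fun g μ =>
      (End.isSemisimple_of_squarefree_aeval_eq_zero (p := Polynomial.X ^ orderOf g - 1)
        (Polynomial.X_pow_sub_one_separable_iff.2 (by simpa using (orderOf_pos g).ne')).squarefree
        (by
          rw [map_sub, map_pow, Polynomial.aeval_X, ← map_pow, pow_orderOf_eq_one, map_one, map_one,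
            sub_self])).isFinitelySemisimple.maxGenEigenspace_eq_eigenspace μ
    have hc : ∀ d d' : D, Commute (ρ d) (ρ d') := fun d d' =>
      (show Commute (d : G) d' from ab_iff.1 hD _ d.2 _ d'.2).map ρ
    have h1 : iSupIndep W := by
      simpa only [hs] using End.independent_iInf_maxGenEigenspace_of_forall_mapsTo
        (fun d : D => ρ d) fun i j φ => End.mapsTo_maxGenEigenspace_of_comm (hc j i) φ
    have h2 : ⨆ χ, W χ = ⊤ := by
      simpa only [hs] using End.iSup_iInf_maxGenEigenspace_eq_top_of_forall_mapsTo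
        (fun d : D => ρ d) (fun i j φ => End.mapsTo_maxGenEigenspace_of_comm (hc j i) φ)
        fun i => End.iSup_maxGenEigenspace_eq_top _
    let Λ := {χ // W χ ≠ ⊥}
    have : Finite Λ := Submodule.finite_ne_bot_of_iSupIndep h1
    have := Fintype.ofFinite Λ
    have h3 : ∀ (g : G) χ, ∀ v ∈ W χ, ρ g v ∈ W fun d => χ ⟨g⁻¹ * d * g, hn.conj_mem' _ d.2 g⟩ :=
      fun g χ v hv => hW.2 fun d => by
        rw [← map_smul, ← hW.1 hv, ← End.mul_apply, ← End.mul_apply, ← map_mul, ← map_mul]
        simp [mul_assoc]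
    letI : MulAction G Λ :=
      { smul g χ := ⟨fun d => χ.1 ⟨g⁻¹ * d * g, hn.conj_mem' _ d.2 g⟩, fun e => χ.2
          (eq_bot_iff.2 fun v hv => by
            rw [← inv_apply (ρ := ρ) g v, (Submodule.mem_bot ℂ).1 (e.le (h3 g _ v hv)), map_zero]
            exact zero_mem _)⟩
        one_smul χ := Subtype.ext (funext fun d => congrArg χ.1 (Subtype.ext (by simp)))
        mul_smul g h χ := Subtype.ext (funext fun d => congrArg χ.1 (Subtype.ext (by
          simp [mul_assoc]))) }
    set N := (MulAction.toPermHom G Λ).ker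
    have h4 : ∀ (g : N) (χ : Λ), ∀ v ∈ W χ.1, ρ g v ∈ W χ.1 := fun g χ v hv => by
      have := h3 g _ v hv
      rwa [show (fun d : D => χ.1 ⟨(g : G)⁻¹ * d * g, hn.conj_mem' _ d.2 g⟩) = χ.1 from
        congrArg Subtype.val (DFunLike.congr_fun (MonoidHom.mem_ker.1 g.2) χ)] at this
    let σ : ∀ χ : Λ, N →* End ℂ (W χ.1) := fun χ =>
      { toFun g := (ρ g).restrict (h4 g χ)
        map_one' := LinearMap.ext fun v => Subtype.ext (by simp)
        map_mul' a b := LinearMap.ext fun v => Subtype.ext (by simp) }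
    have h5 : ∀ χ : Λ, Nontrivial (W χ.1) := fun χ => Submodule.nontrivial_iff_ne_bot.2 χ.2
    let F : Λ → Subgroup N := fun χ =>
      (fittingSubgroup (N ⧸ (σ χ).ker)).comap (QuotientGroup.mk' _)
    have h6 := kn_iInf Finset.univ (F := F) (fun _ => inferInstance) fun χ _ =>
      (ih _ _ _ (kerR_inj (σ χ)) (Nat.le_of_lt_succ ((Submodule.finrank_lt fun e =>
        hU fun d hd => ⟨χ.1 ⟨d, hd⟩, LinearMap.ext fun v =>
          (hW.1 (e.ge Submodule.mem_top) ⟨d, hd⟩).symm⟩).trans_le ht))).comap _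
    have h7 : ∑ χ : Λ, finrank ℂ (W χ.1) ≤ finrank ℂ V := by
      rw [← finrank_directSum]
      exact LinearMap.finrank_le_finrank_of_injective
        (h1.comp Subtype.val_injective).dfinsupp_lsum_injective
    have h8 : ⨅ χ ∈ Finset.univ, F χ ≤ (fittingSubgroup G).subgroupOf N := by
      simp only [Finset.mem_univ, iInf_pos]
      have : (⨅ χ, F χ).Normal := normal_iInf_normal fun _ => inferInstance
      have : ∀ χ : Λ, Group.IsNilpotent (fittingSubgroup (N ⧸ (σ χ).ker)) := fun _ =>
        Core.isNilpotent_fitting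
      refine (Core.le_fitting (Core.isNilpotent_of_injective (Pi.monoidHom fun χ : Λ =>
        ((QuotientGroup.mk' (σ χ).ker).comp (⨅ χ, F χ).subtype).codRestrict
          (fittingSubgroup _) fun x => mem_iInf.1 x.2 χ) ((injective_iff_map_eq_one _).2
            fun x hx => ?_))).trans fun x hx =>
              Core.map_fitting_subtype_le N (mem_map_of_mem _ hx)
      refine Subtype.ext (Subtype.ext (inj (LinearMap.ext fun v => ?_)))
      refine Submodule.iSup_induction W (motive := fun v => ρ x v = ρ 1 v) (h2.ge Submodule.mem_top)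
        (fun χ v hv => ?_) (by simp) fun a b ha hb => by rw [map_add, map_add, ha, hb]
      by_cases h0 : W χ = ⊥
      · simp [(Submodule.mem_bot ℂ).1 (h0.le hv)]
      · have : σ ⟨χ, h0⟩ x = 1 := (QuotientGroup.eq_one_iff _).1
          (congrArg Subtype.val (congrFun hx ⟨χ, h0⟩))
        rw [map_one]
        exact congrArg Subtype.val (LinearMap.congr_fun this ⟨v, hv⟩)
    refine ((kn_act Λ).ext (h6.mono h8 le_rfl)).mono le_rfl ?_
    have h9 : ∑ χ : Λ, (finrank ℂ (W χ.1) - 1) + Nat.card Λ = ∑ χ : Λ, finrank ℂ (W χ.1) := by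
      rw [Nat.card_eq_fintype_card, Fintype.card_eq_sum_ones, ← Finset.sum_add_distrib]
      exact Finset.sum_congr rfl fun χ _ => Nat.sub_add_cancel finrank_pos
    have h10 : Nat.card Λ ≠ 0 := fun e => by
      have : IsEmpty Λ := (Nat.card_eq_zero.1 e).resolve_right (not_infinite_iff_finite.2 ‹_›)
      refine bot_ne_top (α := Submodule ℂ V) (h2 ▸ (iSup_eq_bot.2 fun χ => ?_).symm)
      by_contra h0
      exact this.false ⟨χ, h0⟩
    rw [Finset.prod_pow_eq_pow_sum]
    refine (Nat.mul_le_mul_right _ (Nat.pow_le_pow_left (show 2 ≤ 3 by norm_num) _)).trans ?_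
    rw [← pow_add]
    exact Nat.pow_le_pow_right three_pos (by omega)

end Cfsg.Agent.SLG
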