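import Cfsg.Agent.Lib.SLG.Cls
import Cfsg.Agent.Lib.SLG.Spec
import Cfsg.Agent.Lib.SLG.Num
import Cfsg.Agent.Lib.Comb.ClassTree
import Cfsg.Agent.S4201

/-!
Upper bounds for class numbers of sections.
-/

set_option autoImplicit false

namespace Cfsg.Agent.SLG

open Subgroup Cfsg.Agent.OO
open scoped Pointwise commutatorElement

universe u

variable {G : Type u} [Group G] {N M : Subgroup G} {a b : ℕ}

/-- all sections `H / K` with `H ⊓ N ≤ K` have at most `b` classes -/
def KN (N : Subgroup G) (b : ℕ) : Prop :=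
  ∀ (Y X : Type u) [Group Y] [Finite Y] [Group X] (φ : Y →* G) (g : Y →* X),
    Function.Surjective g → N.comap φ ≤ g.ker → Nat.card (ConjClasses X) ≤ b

theorem KN.mono (h : KN N a) (h1 : N ≤ M) (h2 : a ≤ b) : KN M b :=
  fun Y X _ _ _ φ g hg hk => (h Y X φ g hg ((comap_mono h1).trans hk)).trans h2

theorem KN.comap {G' : Type u} [Group G'] (h : KN N a) (f : G' →* G) : KN (N.comap f) a :=
  fun Y X _ _ _ φ g hg hk => h Y X (f.comp φ) g hg hk

theorem kn_ker {Z : Type*} [Group Z] (f : G →* Z)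
    (h : ∀ H : Subgroup Z, Finite H → Nat.card (ConjClasses H) ≤ b) : KN f.ker b := by
  intro Y X _ _ _ φ g hg hk
  have hs := (f.comp φ).rangeRestrict_surjective
  have : Finite (f.comp φ).range := Finite.of_surjective _ hs
  let ψ := (f.comp φ).rangeRestrict.liftOfSurjective hs ⟨g, fun y hy => hk (congrArg Subtype.val hy)⟩
  have h1 : Function.Surjective ψ := fun x => by
    obtain ⟨y, rfl⟩ := hg x
    exact ⟨_, MonoidHom.liftOfRightInverse_comp_apply _ _ _ _ y⟩
  exact (Nat.card_le_card_of_surjective _ (ConjClasses.map_surjective h1)).trans (h _ this)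

theorem KN.ext [N.Normal] (h1 : KN N a) (h2 : KN (M.subgroupOf N) b) : KN M (a * b) := by
  intro Y X _ _ _ φ g hg hk
  have : Finite X := Finite.of_surjective _ hg
  have := Normal.map (inferInstance : (N.comap φ).Normal) g hg
  refine (S4201.result ((N.comap φ).map g)).trans ?_
  rw [mul_comm]
  refine Nat.mul_le_mul (h1 Y _ φ ((QuotientGroup.mk' _).comp g)
    ((QuotientGroup.mk'_surjective _).comp hg) fun y hy =>
      (QuotientGroup.eq_one_iff _).2 (mem_map_of_mem _ hy))
    (h2 _ _ (φ.subgroupComap N) (g.subgroupMap _) (g.subgroupMap_surjective _) fun y hy =>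
      Subtype.ext (hk hy))

theorem KN.inf [N.Normal] (h1 : KN N a) (h2 : KN M b) : KN (N ⊓ M) (a * b) :=
  h1.ext ((h2.comap N.subtype).mono (fun x hx => ⟨x.2, hx⟩) le_rfl)

theorem kn_index (h : N.index ≠ 0) : KN N N.index := by
  intro Y X _ _ _ φ g hg hk
  have : Finite X := Finite.of_surjective _ hg
  refine (Nat.card_le_card_of_surjective _ ConjClasses.mk_surjective).trans ?_
  rw [← card_top, ← MonoidHom.range_eq_top.2 hg, ← index_ker]
  refine (index_antitone hk).trans ?_
  rw [index_comap]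
  exact (relIndex_le_of_le_right le_top (by rwa [relIndex_top_right])).trans
    (relIndex_top_right _).le

theorem kn_iInf {ι : Type*} (s : Finset ι) {F : ι → Subgroup G} {c : ι → ℕ} (hn : ∀ i, (F i).Normal)
    (h : ∀ i ∈ s, KN (F i) (c i)) : KN (⨅ i ∈ s, F i) (∏ i ∈ s, c i) := by
  classical
  induction s using Finset.induction_on with
  | empty => simpa using kn_index (N := (⊤ : Subgroup G)) (by simp)
  | insert i s hi ih =>
    rw [Finset.iInf_insert, Finset.prod_insert hi]
    exact (h i (by simp)).inf (ih fun j hj => h j (by simp [hj]))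

theorem kn_act (Ω : Type*) [MulAction G Ω] [Finite Ω] :
    KN (MulAction.toPermHom G Ω).ker (2 ^ (Nat.card Ω - 1)) := kn_ker _ fun H _ => by
  have := Fintype.ofFinite Ω
  rw [Nat.card_eq_fintype_card (α := Ω)]
  exact Comb.card_conjClasses_le_two_pow

theorem kn_act7 (Ω : Type*) [MulAction G Ω] [Finite Ω] (h : Nat.card Ω ≤ 7) :
    KN (MulAction.toPermHom G Ω).ker 27 := by
  rcases eq_or_ne (Nat.card Ω) 2 with h2 | h2
  · exact (kn_act Ω).mono le_rfl (by simp [h2])
  refine kn_ker _ fun H _ => ?_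
  have := Fintype.ofFinite Ω
  rw [Nat.card_eq_fintype_card] at h h2
  refine (Nat.pow_le_pow_iff_left two_ne_zero).1 ((Comb.card_conjClasses_sq_le h2).trans ?_)
  exact Nat.pow_le_pow_right (n := 3) three_pos (show _ ≤ 6 by omega)

theorem k_lt [Finite G] {Z : Set G} {z c : ℕ} (h1 : 1 ∈ Z) (hz : Z.ncard ≤ z) (hc : 0 < c)
    (h : ∀ g ∉ Z, ♯𝐂[g] ≤ c) : Nat.card (ConjClasses G) < z + c := by
  classical
  have := Fintype.ofFinite G
  have t := sum_card_cent (G := G)
  rw [← Finset.sum_filter_add_sum_filter_not _ (· ∈ Z)] at t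
  have s1 := Finset.sum_le_card_nsmul (Finset.univ.filter (· ∈ Z)) (fun x => ♯𝐂[x]) (Nat.card G)
    fun x _ => card_le_card_group _
  have s2 := Finset.sum_le_card_nsmul (Finset.univ.filter (· ∉ Z)) (fun x => ♯𝐂[x]) c
    fun x hx => h x (Finset.mem_filter.1 hx).2
  have c1 : (Finset.univ.filter (· ∈ Z)).card ≤ z := by
    rw [Set.ncard_eq_toFinset_card'] at hz
    convert hz
    ext; simp
  have c2 : (Finset.univ.filter (· ∉ Z)).card < Nat.card G := by
    rw [Nat.card_eq_fintype_card]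
    exact Finset.card_lt_card (Finset.filter_ssubset.2 ⟨1, Finset.mem_univ _, by simpa⟩)
  rw [smul_eq_mul] at s1 s2
  refine Nat.lt_of_mul_lt_mul_right (a := Nat.card G) ?_
  nlinarith [Nat.mul_le_mul_right (Nat.card G) c1, Nat.mul_lt_mul_of_pos_right c2 hc]

theorem ker_conjNormal (V : Subgroup G) [V.Normal] :
    (MulAut.conjNormal : G →* MulAut V).ker = 𝐂(V) := by
  ext g
  rw [MonoidHom.mem_ker, MulEquiv.ext_iff, mem_cent_iff_conj]
  exact ⟨fun h x hx => congrArg Subtype.val (h ⟨x, hx⟩), fun h x => Subtype.ext (h x x.2)⟩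

theorem k_aut_sq {E : Type u} [Group E] [Finite E] {r : ℕ} [hr : Fact r.Prime]
    (hc : Nat.card E = r ^ 2) (he : ∀ x : E, x ^ r = 1) (H : Subgroup (MulAut E)) :
    Nat.card (ConjClasses H) < r - 1 + (r ^ 2 - 1) := by
  have h2 := Nat.one_lt_pow two_ne_zero hr.out.one_lt
  have hab := IsPGroup.isMulCommutative_of_card_eq_prime_sq hc
  have hz : ∀ {x : E}, x ≠ 1 → ♯(zpowers x) = r := fun hx => by
    rw [Nat.card_zpowers, orderOf_eq_prime (he _) hx]
  have key : ∀ (c : MulAut E) (v w : E), v ≠ 1 → w ∉ zpowers v → c v = v → c w = w → c = 1 := by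
    intro c v w hv hw h1 h3
    have h4 : zpowers v < (c : E →* E).eqLocus (MonoidHom.id E) :=
      (zpowers_le.2 h1).lt_of_ne fun e => hw (e.ge h3)
    obtain ⟨i, hi, e⟩ := (Nat.dvd_prime_pow hr.out).1 (hc ▸ card_subgroup_dvd_card
      ((c : E →* E).eqLocus (MonoidHom.id E)))
    have h5 := card_lt h4
    rw [hz hv, e] at h5
    have h6 : i = 2 := by
      have := hr.out.pos
      interval_cases i <;> simp_all
    rw [h6, ← hc, card_eq_iff_eq_top] at e
    exact MulEquiv.ext fun x => e.ge (mem_top x)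
  have : Nontrivial E := Finite.one_lt_card_iff_nontrivial.1 (hc ▸ h2)
  obtain ⟨v, hv⟩ := exists_ne (1 : E)
  refine k_lt (Z := {y : H | ∀ x, (y : MulAut E) x ∈ zpowers x}) (fun x => mem_zpowers x) ?_
    (by omega) fun y hy => ?_
  · refine (Set.ncard_le_ncard_of_injOn (s := {y : H | ∀ x, (y : MulAut E) x ∈ zpowers x})
      (t := (zpowers v : Set E) \ {1}) (fun y => (y : MulAut E) v)
      (fun y hy => ⟨hy v, by simpa⟩) fun y hy y' hy' e => ?_).trans (le_of_eq (by
        rw [Set.ncard_sdiff_singleton_of_mem (one_mem _), ← hz hv]; rfl))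
    obtain ⟨w, hw⟩ : ∃ w, w ∉ zpowers v := by
      by_contra! hh
      have := hz hv
      rw [(eq_top_iff (a := zpowers v)).2 fun x _ => hh x, card_top, hc] at this
      nlinarith
    have hw1 : w ≠ 1 := by rintro rfl; exact hw (one_mem _)
    have h3 : (y : MulAut E) w = (y' : MulAut E) w := by
      by_contra h3
      have h4 : ((y : MulAut E) w)⁻¹ * (y' : MulAut E) w ∈ zpowers (v * w) ⊓ zpowers w := by
        refine mem_inf.2 ⟨?_, mul_mem (inv_mem (hy w)) (hy' w)⟩
        have := mul_mem (inv_mem (hy (v * w))) (hy' (v * w))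
        simp only at e
        rwa [map_mul, map_mul, e, mul_inv_rev, mul_assoc, inv_mul_cancel_left] at this
      have h5 : v * w ≠ 1 := fun e => hw (eq_inv_of_mul_eq_one_right e ▸ inv_mem (mem_zpowers v))
      have h6 := (eq_bot_or_eq_of_prime (hz h5 ▸ hr.out) (inf_le_left : _ ⊓ zpowers w ≤ _)).resolve_left
        fun e => h3 (inv_mul_eq_one.1 (mem_bot.1 (e ▸ h4)))
      have h7 : v ∈ zpowers w := (mul_mem_cancel_right (mem_zpowers w)).1 (h6.ge (mem_zpowers _)).2
      exact hw (((eq_bot_or_eq_of_prime (hz hw1 ▸ hr.out) (zpowers_le.2 h7)).resolve_left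
        (zpowers_ne_bot.2 hv)).ge (mem_zpowers w))
    refine Subtype.ext (inv_mul_eq_one.1 (key _ v w hv hw ?_ ?_))
    · simp only at e
      rw [MulAut.mul_apply, ← e, MulAut.inv_apply_self]
    · rw [MulAut.mul_apply, ← h3, MulAut.inv_apply_self]
  · obtain ⟨x, hx⟩ := not_forall.1 hy
    have hx1 : x ≠ 1 := by rintro rfl; exact hx (by simp)
    refine (Set.ncard_le_ncard_of_injOn (s := (𝐂[y] : Set H)) (t := Set.univ \ {1})
      (fun c : H => (c : MulAut E) x) (fun c _ => ⟨trivial, by simpa⟩)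
      fun c h1 c' h3 e => ?_).trans (le_of_eq (by
        rw [Set.ncard_sdiff_singleton_of_mem (Set.mem_univ _), Set.ncard_univ, hc]))
    simp only at e
    have h4 : ((c⁻¹ * c' : H) : MulAut E) x = x := by
      rw [coe_mul, coe_inv, MulAut.mul_apply, ← e, MulAut.inv_apply_self]
    refine inv_mul_eq_one.1 (Subtype.ext (key _ x _ hx1 hx h4 ?_))
    rw [← MulAut.mul_apply, ← coe_mul, mem_cent1.1 (mul_mem (inv_mem h1) h3), coe_mul,
      MulAut.mul_apply, h4]

end Cfsg.Agent.SLG
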