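import Cfsg.Agent.Lib.SLG.Sp4

/-!
Class numbers of sections of solvable groups acting on a symplectic section of order `ε²`.
-/

set_option autoImplicit false

namespace Cfsg.Agent.SLG

open Subgroup Module Cfsg.Agent.OO
open scoped Pointwise commutatorElement

universe u

variable {G : Type u} [Group G] [Finite G]

def gt (n : ℕ) : ℕ :=
  ([(1, 1), (2, 1), (3, 2), (4, 3), (5, 4), (6, 2), (7, 6), (8, 36), (9, 9), (10, 4), (12, 6),
    (16, 204), (18, 9), (20, 12), (25, 27), (27, 757), (32, 1158), (36, 27), (49, 53), (50, 27),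
    (64, 2187), (81, 6561), (100, 81)].lookup n).getD 0

def C3 (a b : ℕ) : Prop := a * b ≤ 100 → gt (a * b) ≠ 0 →
  gt a ≠ 0 ∧ gt b ≠ 0 ∧ gt a * gt b ≤ gt (a * b)

instance decC3 (a b : ℕ) : Decidable (C3 a b) := by unfold C3; infer_instance

theorem gt_mul : ∀ a ≤ 100, ∀ b ≤ 100, C3 a b := by decide +kernel

def C4 (p e : ℕ) : Prop := ∀ a ≤ e, ∀ n ≤ e, ∀ m ≤ e, a * n * m = e →
  tb m * (a * (if p ^ a ≤ 2 then 1 else Sb n) * (p ^ a - 1)) ^ m ≤ gt (p ^ e)

instance decC4 (p e : ℕ) : Decidable (C4 p e) := by unfold C4; infer_instance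

def C5 (p e : ℕ) : Prop := 1 < p → 0 < e → gt (p ^ e) ≠ 0 → (∀ d < p, 1 < d → ¬ d ∣ p) →
  (e = 1 ∧ p - 1 ≤ gt p) ∨ (e = 2 ∧ p - 1 + (p ^ 2 - 1) ≤ gt (p ^ e) + 1) ∨
    (p ^ e) ^ 5 < 25 * (gt (p ^ e) + 1) ^ 2 ∨ C4 p e

instance decC5 (p e : ℕ) : Decidable (C5 p e) := by unfold C5; infer_instance

theorem gt_cases : ∀ p ≤ 100, ∀ e ≤ 6, C5 p e := by decide +kernel

theorem index_cent_prime {D : Subgroup G} [hn : D.Normal] (hp : (♯D).Prime) :
    𝐂(D).index ≤ ♯D - 1 := by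
  obtain ⟨x, hx, hx1⟩ := exists_mem_ne_one (H := D) (by rintro rfl; exact Nat.not_prime_one (by simpa using hp))
  have h5 : zpowers x = D := (eq_bot_or_eq_of_prime hp (zpowers_le.2 hx)).resolve_left
    (zpowers_ne_bot.2 hx1)
  have h7 := relIndex_cent1_le (X := ⊤) (S := (D : Set G) \ {1}) fun c _ =>
    ⟨hn.conj_mem x hx c, fun e => hx1 (by simpa using e)⟩
  rwa [Set.ncard_sdiff_singleton_of_mem (one_mem _), relIndex_top_right, ← cent_zpowers, h5] at h7

theorem kn_min [Group.IsSolvable G] {D : Subgroup G} (hD : Core.IsMinNormal D) (h1 : ♯D ≤ 100)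
    (h2 : gt ♯D ≠ 0) : KN 𝐂(D) (gt ♯D) := by
  have hN := hD.normal
  obtain ⟨p, hp, hE⟩ := hD.exists_isElementaryAbelian inferInstance
  have := Fact.mk hp
  obtain ⟨e, he⟩ := (Core.isPGroup_of_isElementaryAbelian hE).exists_card_eq
  have h3 := one_lt_card hD.ne_bot
  have hk := kn_index (N := 𝐂(D)) index_ne_zero_of_finite
  rw [he] at h1 h2 h3 ⊢
  have h4 : e ≠ 0 := by rintro rfl; simp at h3
  have h5 : e < 7 := (Nat.pow_lt_pow_iff_right one_lt_two).1
    ((Nat.pow_le_pow_left hp.two_le e).trans_lt (by omega))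
  rcases gt_cases p ((Nat.le_self_pow h4 p).trans h1) e (by omega) hp.one_lt (by omega) h2
    fun d h6 h7 h8 => by have := hp.eq_one_or_self_of_dvd d h8; omega
    with ⟨rfl, h⟩ | ⟨rfl, h⟩ | h | h
  · rw [pow_one] at he ⊢
    exact hk.mono le_rfl ((index_cent_prime (he ▸ hp)).trans (he ▸ h))
  · rw [← ker_conjNormal]
    exact kn_ker _ fun H _ => Nat.le_of_lt_succ
      ((k_aut_sq he (fun x => Subtype.ext (hE.2 x x.2)) H).trans_le h)
  · refine hk.mono le_rfl (Nat.le_of_lt_succ (lt_of_pow_lt_pow_left₀ 2 (Nat.zero_le _)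
      (Nat.lt_of_mul_lt_mul_left ((pw hN (fun D' hn hle => ?_) hD.ne_bot).trans_lt (he ▸ h)))))
    rcases hD.eq_bot_or_eq D' hn hle with rfl | rfl
    · exact ⟨D, hN, le_rfl, bot_inf_eq _, le_sup_right⟩
    · exact ⟨⊥, inferInstance, bot_le, inf_bot_eq _, le_sup_left⟩
  · obtain ⟨H, K, _, _, _, _, π, N, B, C, C', U', A', a, n, d⟩ := exists_data hD hE
    have := d.solK
    have := d.solH
    obtain ⟨ε, hε, hs⟩ := d.sym.exists_sig
    have h6 := Nat.pow_right_injective hp.two_le (d.card.symm.trans he)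
    have h7 := d.pos hD.ne_bot
    have h8 : 0 < N.index := Nat.pos_of_ne_zero index_ne_zero_of_finite
    have h9 := d.card_U hp hD.ne_bot
    refine hk.mono le_rfl (le_trans ?_ (h a (by nlinarith [Nat.mul_le_mul h7.2 h8]) n
      (by nlinarith [Nat.mul_le_mul h7.1 h8]) _ (by nlinarith [Nat.mul_le_mul h7.1 h7.2]) h6))
    rw [d.index_eq, ← B.index_mul_card, mul_pow, ← mul_assoc]
    refine Nat.mul_le_mul (d.index_B.trans (Nat.mul_le_mul ?_ (Nat.pow_le_pow_left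
      (Nat.mul_le_mul_left _ ?_) _))) (d.h3.trans (Nat.pow_le_pow_left (by omega) _))
    · unfold tb
      split_ifs
      exacts [index_normalCore_le N, dixon _ H N le_rfl]
    · split_ifs
      · rcases hs with ⟨-, h⟩ | ⟨-, h, -⟩ <;> omega
      · exact hs.le_Sb ((Nat.pow_le_pow_iff_left two_ne_zero).1 (hε ▸ d.sq))

theorem kn_cr [Group.IsSolvable G] (t : ℕ) : ∀ V : Subgroup G, V.Normal → CR V → ♯V ≤ t →
    ♯V ≤ 100 → gt ♯V ≠ 0 → KN 𝐂(V) (gt ♯V) := by
  induction t with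
  | zero => exact fun V _ _ h => absurd h (card_pos' V).not_ge
  | succ t ih =>
    intro V hn hV ht h1 h2
    rcases eq_or_ne V ⊥ with rfl | h0
    · simpa [gt] using kn_index (N := (⊤ : Subgroup G)) (by simp)
    obtain ⟨D, hD, hDV⟩ := Core.exists_isMinNormal_le h0
    obtain ⟨D', h3, h4, h5, h6⟩ := hV D hD.normal hDV
    have := hD.normal
    obtain rfl : D ⊔ D' = V := le_antisymm (sup_le hDV h4) h6
    have h7 := card_sup_of_inf_eq_bot (Or.inl le_normalizer_of_normal) h5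
    have h8 := one_lt_card hD.ne_bot
    have h9 := card_pos' D'
    rw [h7] at ht h1 h2 ⊢
    obtain ⟨g1, g2, g3⟩ := gt_mul ♯D (by nlinarith) ♯D' (by nlinarith) h1 h2
    rw [cent_sup]
    exact ((kn_min hD (by nlinarith) g1).inf (ih D' h3 (hV.of_le h3 h4) (by nlinarith)
      (by nlinarith) g2)).mono le_rfl g3

theorem Sym.kn16 {U A : Subgroup G} [U.Normal] (h : Sym ⊤ U A) (e : U.relIndex A = 16) :
    KN 𝐂(A.map (QuotientGroup.mk' U)) 27 := by
  classical
  set π := QuotientGroup.mk' U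
  have hn := h.nA.map π (QuotientGroup.mk'_surjective U)
  have hc : ♯(A.map π) = 2 ^ 4 := (card_map_mk A).trans e
  have hE : IsElementaryAbelian 2 (A.map π) := by
    let D : Subgroup (G ⧸ U) :=
      { carrier := {x | x ∈ A.map π ∧ x ^ 2 = 1}
        mul_mem' := fun ha hb => ⟨mul_mem ha.1 hb.1, by
          rw [Commute.mul_pow (ab_iff.1 h.ab _ ha.1 _ hb.1), ha.2, hb.2, one_mul]⟩
        one_mem' := ⟨one_mem _, one_pow _⟩
        inv_mem' := fun ha => ⟨inv_mem ha.1, by rw [inv_pow, ha.2, inv_one]⟩ }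
    obtain ⟨D', -, h2, h3, h4⟩ := h.cr D ⟨fun x hx g => ⟨hn.conj_mem x hx.1 g, by
      rw [conj_pow, hx.2, mul_one, mul_inv_cancel]⟩⟩ fun x hx => hx.1
    obtain rfl : D' = ⊥ := by
      by_contra h5
      obtain ⟨i, -, hi⟩ := (Nat.dvd_prime_pow Nat.prime_two).1 (hc ▸ card_dvd h2)
      obtain ⟨x, hx⟩ := exists_prime_orderOf_dvd_card' (G := D') 2 (hi ▸ dvd_pow_self 2 (by
        rintro rfl; exact h5 (card_eq_one_iff.1 hi)))
      have h6 : x = 1 := Subtype.ext (mem_bot.1 (h3.le ⟨⟨h2 x.2,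
        congrArg Subtype.val (hx ▸ pow_orderOf_eq_one x : x ^ 2 = 1)⟩, x.2⟩))
      simp [h6] at hx
    exact ⟨h.ab, fun x hx => ((h4.trans (sup_bot_eq _).le) hx).2⟩
  obtain ⟨W, _, _, _, ρ, ι, l⟩ := Mod.exists_isLin (ZMod 2) hE
  have : Finite W := Module.finite_of_finite (ZMod 2)
  have hs : ∀ w, ∃ x ∈ A, ι (π x) = w := fun w => by
    obtain ⟨⟨_, x, hx, rfl⟩, e⟩ := ((Nat.bijective_iff_injective_and_card (fun x : A.map π => ι x)).2
      ⟨fun a b e => Subtype.ext (l.inj a.2 b.2 e), by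
        rw [l.card_eq, natCard_eq_pow_finrank (K := ZMod 2), Nat.card_zmod]⟩).2 w
    exact ⟨x, hx, e⟩
  choose s hs hs' using hs
  have hm : ∀ {x}, x ∈ A → π x ∈ A.map π := fun hx => mem_map_of_mem _ hx
  have hcm : ∀ {x y}, x ∈ A → y ∈ A → ⁅x, y⁆ ∈ U := fun hx hy =>
    h.comm (commutator_mem_commutator hx hy)
  have hz : ∀ {z}, z ∈ U → ∀ g, g * z = z * g := fun hz g => (h.cen (mem_top g) _ hz).symm
  have hw : ∀ {x}, x ∈ A → ∀ y, ⁅s (ι (π x)), y⁆ = ⁅x, y⁆ := fun {x} hx y => by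
    have h1 : x⁻¹ * s (ι (π x)) ∈ U := QuotientGroup.eq.1 (l.inj (hm hx) (hm (hs _)) (hs' _).symm)
    rw [← mul_inv_cancel_left x (s _), commutatorElement_def, commutatorElement_def, mul_assoc x,
      ← hz h1, mul_inv_rev]
    group
  have hB : ∀ {x y}, x ∈ A → y ∈ A → ⁅s (ι (π x)), s (ι (π y))⁆ = ⁅x, y⁆ := fun hx hy => by
    rw [hw hx, ← commutatorElement_inv, hw hy, commutatorElement_inv]
  have h2 : ∀ {x y}, x ∈ A → y ∈ A → ⁅x, y⁆ ^ 2 = 1 := fun {x y} hx hy => by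
    rw [← PGrp.commutatorElement_pow_left_of_commute (hz (hcm hx hy) x).symm]
    exact commutatorElement_eq_one_iff_mul_comm.2 (hz ((QuotientGroup.eq_one_iff _).1
      (hE.2 _ (hm hx))) y).symm
  have h3 : ∀ {z w}, z ∈ U → w ∈ U → z ^ 2 = 1 → w ^ 2 = 1 → z ≠ 1 → w ≠ 1 → z * w = 1 := by
    intro z w hz hw h1 h2 h3 h4
    have := h.cyc
    have := Fintype.ofFinite U
    have h5 := (Finset.card_le_one (s := (Finset.univ.filter fun a : U => a ^ 2 = 1).erase 1)).1 (by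
      rw [Finset.card_erase_of_mem (by simp)]
      exact Nat.sub_le_sub_right (IsCyclic.card_pow_eq_one_le two_pos) 1) ⟨z, hz⟩
      (by simpa [Subtype.ext_iff] using ⟨h3, h1⟩) ⟨w, hw⟩ (by simpa [Subtype.ext_iff] using ⟨h4, h2⟩)
    rw [show z = w from congrArg Subtype.val h5, ← sq, h2]
  rw [← l.ker_eq]
  refine kn_sp4 (Nat.pow_right_injective le_rfl (l.card_eq.symm.trans hc))
    (fun x y => if ⁅s x, s y⁆ = 1 then 0 else 1) (fun x y z => ?_) (fun x y => ?_)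
    (fun x => by simp) (fun x hx => ?_) ρ fun g x y => ?_
  · rw [← hs' x, ← hs' y, ← l.map_mul _ (hm (hs x)) _ (hm (hs y)), ← map_mul,
      hw (mul_mem (hs x) (hs y)), hs', hs', PGrp.commutatorElement_mul_left_of_commute
        (hz (hcm (hs y) (hs z)) _).symm]
    by_cases e1 : ⁅s x, s z⁆ = 1 <;> by_cases e2 : ⁅s y, s z⁆ = 1 <;> simp [e1, e2]
    rw [if_pos (h3 (hcm (hs y) (hs z)) (hcm (hs x) (hs z)) (h2 (hs y) (hs z)) (h2 (hs x) (hs z))
      e2 e1)]
    rfl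
  · simp only [commutatorElement_eq_one_iff_mul_comm, eq_comm (a := s x * s y)]
  · rw [← hs' x, show π (s x) = 1 from (QuotientGroup.eq_one_iff _).2
      (h.zc ⟨hs x, fun y hy => ?_⟩), l.map_one]
    have := hx (ι (π y))
    rw [← commutatorElement_inv, hw hy] at this
    exact Eq.symm (by simpa [commutatorElement_eq_one_iff_mul_comm] using this)
  · obtain ⟨g, rfl⟩ := QuotientGroup.mk'_surjective U g
    rw [← hs' x, ← hs' y, l.conj _ _ (hm (hs x)), l.conj _ _ (hm (hs y)), ← map_inv, ← map_mul,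
      ← map_mul, ← map_mul, ← map_mul, hB (h.nA.conj_mem _ (hs x) g) (h.nA.conj_mem _ (hs y) g),
      ← conjugate_commutatorElement, hz (hcm (hs x) (hs y)), mul_inv_cancel_right, hs', hs']

theorem pw_n3 {ε : ℕ} (h : 10 ≤ ε) : (ε + 1) ^ 5 ≤ 5 * 3 ^ ε := by
  induction ε, h using Nat.le_induction with
  | base => norm_num
  | succ ε h ih =>
    have : (5 * (ε + 1 + 1)) ^ 5 ≤ (6 * (ε + 1)) ^ 5 := Nat.pow_le_pow_left (by omega) _
    rw [mul_pow, mul_pow] at this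
    rw [pow_succ 3]
    omega

theorem Sym.kn [Group.IsSolvable G] {U A : Subgroup G} (h : Sym ⊤ U A) {ε : ℕ}
    (e : U.relIndex A = ε ^ 2) : KN A (3 ^ (ε - 1)) := by
  have := h.nU
  have hn := h.nA.map _ (QuotientGroup.mk'_surjective U)
  have hc := (card_map_mk A).trans e
  suffices KN 𝐂(A.map (QuotientGroup.mk' U)) (3 ^ (ε - 1)) from
    (this.comap (QuotientGroup.mk' U)).mono (fun x hx => h.faith x (mem_top x) fun a ha =>
      mk_comm_iff.1 (cent_le_cent1 (mem_map_of_mem _ ha) hx)) le_rfl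
  have h0 : 0 < ε := Nat.pos_of_ne_zero (by rintro rfl; exact (relIndex_pos U A).ne' e)
  rcases eq_or_ne ε 4 with rfl | h4
  · exact h.kn16 e
  rcases le_or_gt ε 10 with h1 | h1
  · refine (kn_cr _ _ hn h.cr le_rfl ?_ ?_).mono le_rfl ?_ <;> rw [hc] <;>
      interval_cases ε <;> first | decide | omega
  obtain ⟨ε, rfl⟩ := Nat.exists_eq_add_of_le' h0
  refine (kn_index index_ne_zero_of_finite).mono le_rfl ?_
  have h2 := pw hn h.cr fun e => by
    rw [e, card_bot] at hc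
    nlinarith
  rw [hc, pow_right_comm, show 25 = 5 ^ 2 from rfl, ← mul_pow,
    Nat.pow_le_pow_iff_left two_ne_zero] at h2
  exact Nat.le_of_mul_le_mul_left (h2.trans (pw_n3 (by omega))) (by norm_num)

end Cfsg.Agent.SLG
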