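import Cfsg.Agent.Lib.SLG.KN

/-!
`Sp₄(2)` permutes the six elliptic quadratic forms faithfully.
-/

set_option autoImplicit false

namespace Cfsg.Agent.SLG

open Subgroup Module Cfsg.Agent.OO

universe u

abbrev T4 := ZMod 2 × ZMod 2 × ZMod 2 × ZMod 2

def Qf (m n w x : T4) : ZMod 2 :=
  m.1 * x.1 * x.2.1 + m.2.1 * x.1 * x.2.2.1 + m.2.2.1 * x.1 * x.2.2.2 + m.2.2.2 * x.2.1 * x.2.2.1 +
    n.1 * x.2.1 * x.2.2.2 + n.2.1 * x.2.2.1 * x.2.2.2 + w.1 * x.1 + w.2.1 * x.2.1 +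
    w.2.2.1 * x.2.2.1 + w.2.2.2 * x.2.2.2

def Bf (m n x y : T4) : ZMod 2 := Qf m n 0 (x + y) - Qf m n 0 x - Qf m n 0 y

def Gd (m n w : T4) : Prop := (Finset.univ.filter fun x => Qf m n w x = 0).card = 6

instance decGd (m n w : T4) : Decidable (Gd m n w) := by unfold Gd; infer_instance

def Nd (m n : T4) : Prop := ∀ x, (∀ y, Bf m n x y = 0) → x = 0

instance decNd (m n : T4) : Decidable (Nd m n) := by unfold Nd; infer_instance

def Sp (m n x : T4) : Prop := ∀ y, x ≠ y → ∃ w, Qf m n w x ≠ Qf m n w y ∧ Gd m n w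

instance decSp (m n x : T4) : Decidable (Sp m n x) := by unfold Sp; infer_instance

def Ck (m n : T4) : Prop := Nd m n → (Finset.univ.filter (Gd m n)).card ≤ 7 ∧
  Sp m n (1, 0, 0, 0) ∧ Sp m n (0, 1, 0, 0) ∧ Sp m n (0, 0, 1, 0) ∧ Sp m n (0, 0, 0, 1)

instance decCk (m n : T4) : Decidable (Ck m n) := by unfold Ck; infer_instance

theorem ck : ∀ m : T4, ∀ a b : ZMod 2, Ck m (a, b, 0, 0) := by decide +kernel

theorem kn_sp4 {G : Type u} [Group G] {W : Type*} [AddCommGroup W] [Module (ZMod 2) W]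
    [FiniteDimensional (ZMod 2) W] (h4 : finrank (ZMod 2) W = 4) (B : W → W → ZMod 2)
    (hadd : ∀ x y z, B (x + y) z = B x z + B y z) (hs : ∀ x y, B x y = B y x)
    (h0 : ∀ x, B x x = 0) (hn : ∀ x, (∀ y, B x y = 0) → x = 0) (ρ : G →* End (ZMod 2) W)
    (hi : ∀ g x y, B (ρ g x) (ρ g y) = B x y) : KN ρ.ker 27 := by
  have hW : Finite W := Module.finite_of_finite (ZMod 2)
  let b := finBasisOfFinrankEq (ZMod 2) W h4
  let f : T4 → W := fun x => x.1 • b 0 + x.2.1 • b 1 + x.2.2.1 • b 2 + x.2.2.2 • b 3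
  have hf : Function.Bijective f := (Nat.bijective_iff_surjective_and_card f).2 ⟨fun w =>
    ⟨(b.repr w 0, b.repr w 1, b.repr w 2, b.repr w 3), by
      conv_rhs => rw [← b.sum_repr w, Fin.sum_univ_four]⟩, by
    rw [natCard_eq_pow_finrank (K := ZMod 2) (V := W), h4]; simp⟩
  let e := Equiv.ofBijective f hf
  have fa : ∀ x y, f (x + y) = f x + f y := fun x y => by
    simp only [f, Prod.fst_add, Prod.snd_add, add_smul]; abel
  have z2 : ∀ i : ZMod 2, i = 0 ∨ i = 1 := by decide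
  have B0 : ∀ y, B 0 y = 0 := fun y => by simpa using hadd 0 0 y
  have Bs : ∀ (i : ZMod 2) x y, B (i • x) y = i * B x y := fun i x y => by
    rcases z2 i with rfl | rfl <;> simp [B0]
  have Bs' : ∀ (i : ZMod 2) x y, B x (i • y) = i * B x y := fun i x y => by rw [hs, Bs, hs]
  have hadd' : ∀ x y z, B x (y + z) = B x y + B x z := fun x y z => by
    rw [hs, hadd, hs y, hs z]
  let m : T4 := (B (b 0) (b 1), B (b 0) (b 2), B (b 0) (b 3), B (b 1) (b 2))
  let n : T4 := (B (b 1) (b 3), B (b 2) (b 3), 0, 0)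
  have hB : ∀ x y, B (f x) (f y) = Bf m n x y := fun x y => by
    simp only [f, hadd, hadd', Bs, Bs', h0, hs (b 1) (b 0), hs (b 2) (b 0), hs (b 3) (b 0),
      hs (b 2) (b 1), hs (b 3) (b 1), hs (b 3) (b 2), Bf, Qf, m, n, Prod.fst_add, Prod.snd_add,
      Prod.fst_zero, Prod.snd_zero]
    ring
  obtain ⟨c1, c2⟩ := ck m n.1 n.2.1 fun x hx => hf.1 ((hn _ fun y => by
    obtain ⟨y, rfl⟩ := hf.2 y
    exact (hB x y).trans (hx y)).trans (by simp [f]))
  let Ω := {Q : W → ZMod 2 // (∀ x y, Q (x + y) = Q x + Q y + B x y) ∧ {x | Q x = 0}.ncard = 6}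
  letI : MulAction G Ω :=
    { smul g Q := ⟨fun x => Q.1 (ρ g⁻¹ x), fun x y => by simp only [map_add, Q.2.1, hi], by
        refine Eq.trans ?_ Q.2.2
        exact Set.ncard_congr (fun x _ => ρ g⁻¹ x) (fun _ h => h) (fun x y _ _ h => by
          simpa [← End.mul_apply, ← map_mul] using congrArg (ρ g) h) fun x hx =>
            ⟨ρ g x, by simpa [← End.mul_apply, ← map_mul] using hx, by
              simp [← End.mul_apply, ← map_mul]⟩⟩
      one_smul Q := Subtype.ext (funext fun x => show Q.1 (ρ 1⁻¹ x) = _ by simp)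
      mul_smul g h Q := Subtype.ext (funext fun x =>
        show Q.1 (ρ (g * h)⁻¹ x) = Q.1 (ρ h⁻¹ (ρ g⁻¹ x)) by simp) }
  have hc : ∀ (Q : W → ZMod 2) w, (∀ x, Q (f x) = Qf m n w x) →
      ({x | Q x = 0}.ncard = 6 ↔ Gd m n w) := fun Q w h => by
    rw [Gd, ← Set.ncard_coe_finset, ← Set.ncard_preimage_of_injective_subset_range hf.1
      (hf.2.range_eq ▸ Set.subset_univ _)]
    simp [h]
  have hQ : ∀ Q : Ω, ∀ x, Q.1 (f x) = Qf m n (Q.1 (b 0), Q.1 (b 1), Q.1 (b 2), Q.1 (b 3)) x := by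
    intro Q x
    have Q0 : Q.1 0 = 0 := by simpa [B0] using Q.2.1 0 0
    have Qs : ∀ (i : ZMod 2) x, Q.1 (i • x) = i * Q.1 x := fun i x => by
      rcases z2 i with rfl | rfl <;> simp [Q0]
    simp only [f, Q.2.1, Qs, hadd, Bs, Bs', Qf, m, n]
    ring
  refine (kn_act7 Ω (le_trans ?_ c1)).mono (fun g hg => ?_) le_rfl
  · rw [← Nat.card_eq_finsetCard]
    refine Nat.card_le_card_of_injective (fun Q => ⟨(Q.1 (b 0), Q.1 (b 1), Q.1 (b 2), Q.1 (b 3)),
      Finset.mem_filter.2 ⟨Finset.mem_univ _, (hc _ _ (hQ Q)).1 Q.2.2⟩⟩) fun Q Q' h =>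
      Subtype.ext (funext fun x => ?_)
    obtain ⟨x, rfl⟩ := hf.2 x
    rw [hQ, hQ]
    exact congrArg (Qf m n · x) (Subtype.ext_iff.1 h)
  · have key : ∀ x, Sp m n x → ρ g⁻¹ (f x) = f x := fun x hx => by
      obtain ⟨y, hy⟩ := hf.2 (ρ g⁻¹ (f x))
      by_contra h
      obtain ⟨w, h1, h2⟩ := hx y (by rintro rfl; exact h hy.symm)
      have h3 : ∀ x, Qf m n w (e.symm (f x)) = Qf m n w x := fun x =>
        congrArg _ (e.symm_apply_apply x)
      have := congrFun (congrArg Subtype.val (DFunLike.congr_fun (MonoidHom.mem_ker.1 hg)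
        (⟨fun x => Qf m n w (e.symm x), fun x y => by
          obtain ⟨x, rfl⟩ := hf.2 x
          obtain ⟨y, rfl⟩ := hf.2 y
          simp only [← fa, h3, hB]
          simp only [Bf, Qf, Prod.fst_add, Prod.snd_add, Prod.fst_zero, Prod.snd_zero]
          ring, (hc _ w h3).2 h2⟩ : Ω))) (f x)
      exact h1 ((h3 x).symm.trans (this.symm.trans ((congrArg (fun z => Qf m n w (e.symm z))
        hy.symm).trans (h3 y))))
    refine inv_mem_iff.1 (b.ext fun i => ?_)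
    fin_cases i
    · simpa [f] using key _ c2.1
    · simpa [f] using key _ c2.2.1
    · simpa [f] using key _ c2.2.2.1
    · simpa [f] using key _ c2.2.2.2

end Cfsg.Agent.SLG
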